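import Cfsg.Agent.H12.EP.BT

/-!
# S3499-VII-BT-COUNT (helper12), part 4: the Galois numbers for the groups over the field with two elements

`fam b m = ∏_{i=1}^m (b ^ i - 1)`, `b = 2, 4`.

* `galSum_fam_two` : `galSum (fam 2 m) ≤ 2 ^ (m ^ 2 - 2)` (`m ≥ 3`);
* `galSum_fam_four` : `galSum (fam 4 m) ≤ 2 ^ (2 m ^ 2 - m - 1)` (`m ≥ 3`);
* `galSumNe_le` : `n ∣ 2 ^ N * k` gives `galSumNe 2 n ≤ galSum k`.
-/

set_option autoImplicit false

namespace Cfsg.Agent.H12.EP.BT

open Cfsg.Agent.H59.EP Cfsg.Agent.H528.EP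

/-- `∏_{i=1}^m (b ^ i - 1)` -/
def fam (b : ℕ) : ℕ → ℕ
  | 0 => 1
  | m + 1 => fam b m * (b ^ (m + 1) - 1)

theorem fam_pos {b : ℕ} (hb : 2 ≤ b) (m : ℕ) : 0 < fam b m := by
  induction m with
  | zero => exact Nat.one_pos
  | succ m ih =>
    have h1 : 1 < b ^ (m + 1) := Nat.one_lt_pow (by omega) (by omega)
    exact Nat.mul_pos ih (by omega)

theorem fam_dvd {b m m' : ℕ} (h : m ≤ m') : fam b m ∣ fam b m' := by
  induction m' with
  | zero => rw [Nat.le_zero.1 h]
  | succ k ih =>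
    rcases Nat.lt_or_ge m (k + 1) with h1 | h1
    · exact (ih (by omega)).mul_right _
    · rw [show m = k + 1 by omega]

/-- the `s`-part of `fam b m`, `e` the order of `b` modulo `s` -/
theorem factorization_fam {b s : ℕ} (hb : 2 ≤ b) (hs : s.Prime) (hs2 : s ≠ 2) {e : ℕ}
    (he : ∀ i, s ∣ b ^ i - 1 ↔ e ∣ i) (he0 : 0 < e) (hsb : ¬ s ∣ b) (m : ℕ) :
    (fam b m).factorization s = m / e * (b ^ e - 1).factorization s + (m / e).factorial.factorization s := by
  induction m with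
  | zero => simp [fam]
  | succ m ih =>
    have h1 : 1 < b ^ (m + 1) := Nat.one_lt_pow (by omega) (by omega)
    have h2 : fam b (m + 1) = fam b m * (b ^ (m + 1) - 1) := rfl
    rw [h2, Nat.factorization_mul (fam_pos hb m).ne' (by omega), Finsupp.add_apply, ih, Nat.succ_div]
    by_cases hd : e ∣ m + 1
    · rw [if_pos hd]
      obtain ⟨t, ht⟩ := hd
      have ht' : m / e + 1 = t := by
        have h3 : (m + 1) / e = m / e + if e ∣ m + 1 then 1 else 0 := Nat.succ_div
        rw [if_pos ⟨t, ht⟩] at h3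
        rw [← h3, ht, Nat.mul_div_cancel_left _ he0]
      have ht0 : t ≠ 0 := by
        rintro rfl
        simp at ht
      have h4 : (b ^ (m + 1) - 1).factorization s = (b ^ e - 1).factorization s + t.factorization s := by
        rw [ht, pow_mul]
        have hfact : Fact s.Prime := ⟨hs⟩
        have h5 : s ∣ b ^ e - 1 := (he e).2 (dvd_refl e)
        have hbe : 1 < b ^ e := Nat.one_lt_pow (by omega) (by omega)
        have h6 := padicValNat.pow_sub_pow (p := s) (x := b ^ e) (y := 1) (hs.odd_of_ne_two hs2) hbe h5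
          (fun h7 => hsb (hs.dvd_of_dvd_pow h7)) (n := t) ht0
        rw [one_pow] at h6
        rw [Nat.factorization_def _ hs, Nat.factorization_def _ hs, Nat.factorization_def _ hs]
        exact h6
      rw [h4, ht', ← ht', Nat.factorial_succ, Nat.factorization_mul (by omega) (Nat.factorial_ne_zero _),
        Finsupp.add_apply, ht']
      have : m / e = t - 1 := by omega
      rw [this]
      obtain ⟨t', rfl⟩ : ∃ t', t = t' + 1 := ⟨t - 1, by omega⟩
      rw [Nat.add_sub_cancel]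
      ring
    · rw [if_neg hd, Nat.factorization_eq_zero_of_not_dvd (fun h3 => hd ((he _).1 h3))]
      rfl

/-- the order of `b` modulo `s` -/
theorem exists_order {b s : ℕ} (hb : 2 ≤ b) (hs : s.Prime) (hsb : ¬ s ∣ b) :
    ∃ e, 0 < e ∧ ∀ i, s ∣ b ^ i - 1 ↔ e ∣ i := by
  have hfact : Fact s.Prime := ⟨hs⟩
  have hcop : Nat.Coprime b s := (hs.coprime_iff_not_dvd.2 hsb).symm
  refine ⟨orderOf (ZMod.unitOfCoprime b hcop), orderOf_pos _, fun i => ?_⟩
  rw [orderOf_dvd_iff_pow_eq_one, Units.ext_iff]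
  push_cast
  rw [ZMod.coe_unitOfCoprime, ← ZMod.natCast_eq_zero_iff, Nat.cast_sub (Nat.one_le_pow _ _ (by omega))]
  push_cast
  rw [sub_eq_zero]

/-- the order of the Sylow `s`-subgroup -/
theorem pow_factorization_fam_le {b s : ℕ} (hb : 2 ≤ b) (hs : s.Prime) (hs2 : s ≠ 2) {e : ℕ}
    (he : ∀ i, s ∣ b ^ i - 1 ↔ e ∣ i) (he0 : 0 < e) (hsb : ¬ s ∣ b) (m : ℕ) :
    s ^ (fam b m).factorization s ≤ b ^ m * 2 ^ (m / e) := by
  rw [factorization_fam hb hs hs2 he he0 hsb, pow_add]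
  apply Nat.mul_le_mul
  · rw [mul_comm, pow_mul]
    have hbe : 1 < b ^ e := Nat.one_lt_pow (by omega) (by omega)
    calc (s ^ (b ^ e - 1).factorization s) ^ (m / e) ≤ (b ^ e) ^ (m / e) := by
          apply Nat.pow_le_pow_left
          have := Nat.le_of_dvd (by omega) (Nat.ordProj_dvd (b ^ e - 1) s)
          omega
      _ = b ^ (e * (m / e)) := by rw [pow_mul]
      _ ≤ b ^ m := Nat.pow_le_pow_right (by omega) (Nat.mul_div_le m e)
  · have hfact : Fact s.Prime := ⟨hs⟩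
    have h1 : (s - 1) * (m / e).factorial.factorization s ≤ m / e := by
      rw [Nat.factorization_def _ hs, sub_one_mul_padicValNat_factorial (p := s) (m / e)]
      exact Nat.sub_le _ _
    calc s ^ (m / e).factorial.factorization s ≤ (2 ^ (s - 1)) ^ (m / e).factorial.factorization s := by
          apply Nat.pow_le_pow_left
          have h2 : ∀ k : ℕ, k + 1 ≤ 2 ^ k := fun k => Nat.lt_two_pow_self
          have h3 := h2 (s - 1)
          have := hs.pos
          omega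
      _ = 2 ^ ((s - 1) * (m / e).factorial.factorization s) := by rw [pow_mul]
      _ ≤ 2 ^ (m / e) := Nat.pow_le_pow_right (by norm_num) h1

theorem fam_le (b : ℕ) (m : ℕ) : fam b m ≤ b ^ (m * (m + 1) / 2) := by
  induction m with
  | zero => simp [fam]
  | succ m ih =>
    have h1 : (m + 1) * (m + 1 + 1) / 2 = m * (m + 1) / 2 + (m + 1) := by
      have : (m + 1) * (m + 1 + 1) = m * (m + 1) + 2 * (m + 1) := by ring
      rw [this, Nat.add_mul_div_left _ _ (by norm_num)]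
    rw [h1, pow_add]
    exact Nat.mul_le_mul ih (Nat.sub_le _ _)

theorem card_primeFactors_le {n k : ℕ} (hn : n ≠ 0) (hk : n ≤ 2 ^ k) : n.primeFactors.card ≤ k := by
  have h1 : 2 ^ n.primeFactors.card ≤ n := by
    calc 2 ^ n.primeFactors.card = ∏ _p ∈ n.primeFactors, 2 := by rw [Finset.prod_const]
      _ ≤ ∏ p ∈ n.primeFactors, p := Finset.prod_le_prod (fun _ _ => Nat.zero_le _) fun p hp =>
          (Nat.prime_of_mem_primeFactors hp).two_le
      _ ≤ n := Nat.le_of_dvd (by omega) (Nat.prod_primeFactors_dvd n)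
  exact (Nat.pow_le_pow_iff_right (by norm_num)).1 (h1.trans hk)

theorem galSum_le_of_forall {n k V : ℕ} (hn : n ≠ 0) (hk : n ≤ 2 ^ k)
    (hV : ∀ s ∈ n.primeFactors, gal s (n.factorization s) ≤ V) : galSum n ≤ k * V := by
  calc galSum n ≤ ∑ _s ∈ n.primeFactors, V := Finset.sum_le_sum hV
    _ = n.primeFactors.card * V := by rw [Finset.sum_const, smul_eq_mul]
    _ ≤ k * V := Nat.mul_le_mul_right _ (card_primeFactors_le hn hk)

/-- `fam b m` is odd for even `b` -/
theorem not_two_dvd_fam {b : ℕ} (hb2 : 2 ≤ b) (hb : 2 ∣ b) (m : ℕ) : ¬ 2 ∣ fam b m := by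
  induction m with
  | zero => simp [fam]
  | succ m ih =>
    intro h
    rcases (Nat.Prime.dvd_mul Nat.prime_two).1 (show 2 ∣ fam b m * (b ^ (m + 1) - 1) from h) with h1 | h1
    · exact ih h1
    · have h2 : 2 ∣ b ^ (m + 1) := hb.trans (dvd_pow_self b (by omega))
      have h3 : 1 ≤ b ^ (m + 1) := Nat.one_le_pow _ _ (by omega)
      omega

/-- the own prime 2 is excluded -/
theorem galSumNe_le {n N k : ℕ} (hk : k ≠ 0) (hn : n ∣ 2 ^ N * k) : galSumNe 2 n ≤ galSum k := by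
  have h0 : 2 ^ N * k ≠ 0 := Nat.mul_ne_zero (by positivity) hk
  have hn0 : n ≠ 0 := ne_zero_of_dvd_ne_zero h0 hn
  unfold galSumNe galSum
  have h1 : ∀ s ∈ n.primeFactors.erase 2, s ∈ k.primeFactors ∧ gal s (n.factorization s) ≤ gal s (k.factorization s) := by
    intro s hs
    obtain ⟨hs2, hs'⟩ := Finset.mem_erase.1 hs
    have hsp := Nat.prime_of_mem_primeFactors hs'
    have hsd := Nat.dvd_of_mem_primeFactors hs'
    have hsk : s ∣ k := by
      rcases (Nat.Prime.dvd_mul hsp).1 (hsd.trans hn) with h | h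
      · exact absurd ((Nat.prime_dvd_prime_iff_eq hsp Nat.prime_two).1 (hsp.dvd_of_dvd_pow h)) hs2
      · exact h
    refine ⟨Nat.mem_primeFactors.2 ⟨hsp, hsk, hk⟩, gal_mono s hsp.pos ?_⟩
    have h2 := (Nat.factorization_le_iff_dvd hn0 h0).2 hn s
    rw [Nat.factorization_mul (by positivity) hk, Finsupp.add_apply, Nat.prime_two.factorization_pow,
      Finsupp.single_eq_of_ne hs2, zero_add] at h2
    exact h2
  exact (Finset.sum_le_sum fun s hs => (h1 s hs).2).trans
    (Finset.sum_le_sum_of_subset fun s hs => (h1 s hs).1)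

theorem gal_le_of_pow {s v D T : ℕ} (hs : 3 ≤ s) (hv : 1 ≤ v) (hD : 0 < D)
    (h : s ^ (D * (v * (v + 3))) ≤ 2 ^ (4 * D * T)) : gal s v ≤ v * 2 ^ T := by
  refine (gal_le (by omega)).trans (Nat.mul_le_mul_left _ ?_)
  rw [← Nat.pow_le_pow_iff_left (show 4 * D ≠ 0 by omega)]
  calc (s ^ ((v + 1) ^ 2 / 4)) ^ (4 * D) = s ^ ((v + 1) ^ 2 / 4 * 4 * D) := by rw [← pow_mul, mul_assoc]
    _ ≤ s ^ (D * (v * (v + 3))) := by
        apply Nat.pow_le_pow_right (by omega)
        rw [mul_comm D]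
        apply Nat.mul_le_mul_right
        have : (v + 1) ^ 2 / 4 * 4 ≤ (v + 1) ^ 2 := Nat.div_mul_le_self _ _
        nlinarith
    _ ≤ 2 ^ (4 * D * T) := h
    _ = (2 ^ T) ^ (4 * D) := by rw [← pow_mul, mul_comm]

theorem gal_fam_four {m s : ℕ} (hs : s ∈ (fam 4 m).primeFactors) :
    gal s ((fam 4 m).factorization s) ≤ 2 * m * 2 ^ (3 * (m * (m + 1) / 2)) := by
  have hsp := Nat.prime_of_mem_primeFactors hs
  have hsd := Nat.dvd_of_mem_primeFactors hs
  have hs2 : s ≠ 2 := by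
    rintro rfl
    exact not_two_dvd_fam (by norm_num) (by norm_num) m hsd
  have hs3 : 3 ≤ s := by
    have := hsp.two_le
    omega
  have hsb : ¬ s ∣ 4 := by
    intro h
    have h1 : s ∣ 2 ^ 2 := h
    exact hs2 ((Nat.prime_dvd_prime_iff_eq hsp Nat.prime_two).1 (hsp.dvd_of_dvd_pow h1))
  obtain ⟨e, he0, he⟩ := exists_order (b := 4) (by norm_num) hsp hsb
  have h1 := pow_factorization_fam_le (b := 4) (by norm_num) hsp hs2 he he0 hsb m
  set v := (fam 4 m).factorization s with hv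
  have h2 : s ^ v ≤ 2 ^ (3 * m) := by
    refine h1.trans ?_
    calc 4 ^ m * 2 ^ (m / e) ≤ 4 ^ m * 2 ^ m := by
          apply Nat.mul_le_mul_left
          exact Nat.pow_le_pow_right (by norm_num) (Nat.div_le_self _ _)
      _ = 2 ^ (3 * m) := by rw [pow_mul, ← mul_pow]; norm_num
  have hv1 : 1 ≤ v := hsp.factorization_pos_of_dvd (fam_pos (by norm_num) m).ne' hsd
  have hm : v + 1 ≤ 2 * m := by
    have h3 : 3 ^ v < 3 ^ (2 * m) := by
      calc 3 ^ v ≤ s ^ v := Nat.pow_le_pow_left hs3 v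
        _ ≤ 2 ^ (3 * m) := h2
        _ = 8 ^ m := by rw [pow_mul]; norm_num
        _ < 9 ^ m := by
            apply Nat.pow_lt_pow_left (by norm_num)
            rintro rfl
            simp [fam] at hv
            omega
        _ = 3 ^ (2 * m) := by rw [pow_mul]; norm_num
    have := (Nat.pow_lt_pow_iff_right (by norm_num)).1 h3
    omega
  have hmm : m * (m + 1) / 2 * 2 = m * (m + 1) := Nat.div_mul_cancel (Nat.even_mul_succ_self m).two_dvd
  refine (gal_le_of_pow (D := 1) (T := 3 * (m * (m + 1) / 2)) hs3 hv1 (by norm_num) ?_).trans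
    (Nat.mul_le_mul_right _ (by omega))
  calc s ^ (1 * (v * (v + 3))) = (s ^ v) ^ (v + 3) := by rw [one_mul, pow_mul]
    _ ≤ (2 ^ (3 * m)) ^ (v + 3) := Nat.pow_le_pow_left h2 _
    _ ≤ (2 ^ (3 * m)) ^ (2 * m + 2) := Nat.pow_le_pow_right (by positivity) (by omega)
    _ = 2 ^ (4 * 1 * (3 * (m * (m + 1) / 2))) := by
        rw [← pow_mul]
        congr 1
        have : 4 * 1 * (3 * (m * (m + 1) / 2)) = 6 * (m * (m + 1) / 2 * 2) := by ring
        rw [this, hmm]
        ring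

theorem gal_fam_two {t s : ℕ} (hs : s ∈ (fam 2 (t + 5)).primeFactors) :
    gal s ((fam 2 (t + 5)).factorization s) ≤ (t + 5) * 2 ^ (t ^ 2 + 5 * t + 14) := by
  have hsp := Nat.prime_of_mem_primeFactors hs
  have hsd := Nat.dvd_of_mem_primeFactors hs
  have hs2 : s ≠ 2 := by
    rintro rfl
    exact not_two_dvd_fam (by norm_num) (by norm_num) _ hsd
  have hs3 : 3 ≤ s := by
    have := hsp.two_le
    omega
  have hsb : ¬ s ∣ 2 := by
    intro h
    exact hs2 ((Nat.prime_dvd_prime_iff_eq hsp Nat.prime_two).1 h)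
  obtain ⟨e, he0, he⟩ := exists_order (b := 2) (by norm_num) hsp hsb
  have h1 := pow_factorization_fam_le (b := 2) (by norm_num) hsp hs2 he he0 hsb (t + 5)
  have he2 : 2 ≤ e := by
    by_contra hlt
    have he1 : e = 1 := by omega
    subst he1
    have := (he 1).2 (dvd_refl 1)
    norm_num at this
    exact hsp.one_lt.ne' this
  set m := t + 5 with hm
  set v := (fam 2 m).factorization s with hv
  have h2 : s ^ (2 * v) ≤ 2 ^ (3 * m) := by
    calc s ^ (2 * v) = (s ^ v) ^ 2 := by rw [mul_comm, pow_mul]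
      _ ≤ (2 ^ m * 2 ^ (m / 2)) ^ 2 := by
          apply Nat.pow_le_pow_left
          refine h1.trans (Nat.mul_le_mul_left _ ?_)
          exact Nat.pow_le_pow_right (by norm_num) (Nat.div_le_div_left he2 (by norm_num))
      _ = 2 ^ (2 * m + m / 2 * 2) := by rw [← pow_add, ← pow_mul]; congr 1; ring
      _ ≤ 2 ^ (3 * m) := by
          apply Nat.pow_le_pow_right (by norm_num)
          have := Nat.div_mul_le_self m 2
          omega
  have hv1 : 1 ≤ v := hsp.factorization_pos_of_dvd (fam_pos (by norm_num) m).ne' hsd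
  have hvm : v < m := by
    have h3 : 3 ^ (2 * v) < 3 ^ (2 * m) := by
      calc 3 ^ (2 * v) ≤ s ^ (2 * v) := Nat.pow_le_pow_left hs3 _
        _ ≤ 2 ^ (3 * m) := h2
        _ = 8 ^ m := by rw [pow_mul]; norm_num
        _ < 9 ^ m := Nat.pow_lt_pow_left (by norm_num) (by omega)
        _ = 3 ^ (2 * m) := by rw [pow_mul]; norm_num
    have := (Nat.pow_lt_pow_iff_right (by norm_num)).1 h3
    omega
  refine (gal_le_of_pow (D := 2) (T := t ^ 2 + 5 * t + 14) hs3 hv1 (by norm_num) ?_).trans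
    (Nat.mul_le_mul_right _ hvm.le)
  calc s ^ (2 * (v * (v + 3))) = (s ^ (2 * v)) ^ (v + 3) := by rw [← pow_mul]; congr 1; ring
    _ ≤ (2 ^ (3 * m)) ^ (v + 3) := Nat.pow_le_pow_left h2 _
    _ ≤ (2 ^ (3 * m)) ^ (m + 2) := Nat.pow_le_pow_right (by positivity) (by omega)
    _ = 2 ^ (3 * m * (m + 2)) := by rw [← pow_mul]
    _ ≤ 2 ^ (4 * 2 * (t ^ 2 + 5 * t + 14)) := by
        apply Nat.pow_le_pow_right (by norm_num)
        rw [hm]
        nlinarith

theorem galSum_of_list {n V : ℕ} (l : List (ℕ × ℕ)) (h1 : ∀ x ∈ l, x.1.Prime ∧ 0 < x.2) (h2 : (l.map Prod.fst).Nodup)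
    (hn : n = (l.map fun x => x.1 ^ x.2).prod) (hV : (l.map fun x => gal x.1 x.2).sum ≤ V) : galSum n ≤ V := by
  rw [hn, (galSum_list l h1 h2).1]
  exact hV

/-- **`L_m(2)`** -/
theorem galSum_fam_two {m : ℕ} (hm : 3 ≤ m) : galSum (fam 2 m) ≤ 2 ^ (m ^ 2 - 2) := by
  rcases Nat.lt_or_ge m 5 with h5 | h5
  · interval_cases m
    · exact galSum_of_list [(3, 1), (7, 1)] (by norm_num) (by decide) (by decide) (by decide)
    · exact galSum_of_list [(3, 2), (5, 1), (7, 1)] (by norm_num) (by decide) (by decide) (by decide)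
  obtain ⟨t, rfl⟩ : ∃ t, m = t + 5 := ⟨m - 5, by omega⟩
  have h1 := galSum_le_of_forall (k := (t + 5) * (t + 5 + 1) / 2) (fam_pos (by norm_num) (t + 5)).ne'
    (fam_le 2 (t + 5)) (fun s hs => gal_fam_two hs)
  refine h1.trans ?_
  have h2 : ∀ t : ℕ, (t + 5) * (t + 5 + 1) * (t + 5) ≤ 2 * 2 ^ (9 + 5 * t) := by
    intro t
    induction t with
    | zero => norm_num
    | succ t ih =>
      have e : 2 ^ (9 + 5 * (t + 1)) = 32 * 2 ^ (9 + 5 * t) := by
        rw [show 9 + 5 * (t + 1) = 5 + (9 + 5 * t) by ring, pow_add]; norm_num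
      have key : 32 * ((t + 5) * (t + 5 + 1) * (t + 5)) = (t + 1 + 5) * (t + 1 + 5 + 1) * (t + 1 + 5) +
          (31 * t ^ 3 + 493 * t ^ 2 + 2600 * t + 4548) := by ring
      calc (t + 1 + 5) * (t + 1 + 5 + 1) * (t + 1 + 5) ≤ 32 * ((t + 5) * (t + 5 + 1) * (t + 5)) := by
            rw [key]; exact Nat.le_add_right _ _
        _ ≤ 32 * (2 * 2 ^ (9 + 5 * t)) := Nat.mul_le_mul_left _ ih
        _ = 2 * 2 ^ (9 + 5 * (t + 1)) := by rw [e]; ring
  have h3 : (t + 5) * (t + 5 + 1) / 2 * (t + 5) ≤ 2 ^ (9 + 5 * t) := by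
    have h4 := h2 t
    have h5 := Nat.div_mul_le_self ((t + 5) * (t + 5 + 1)) 2
    nlinarith
  calc (t + 5) * (t + 5 + 1) / 2 * ((t + 5) * 2 ^ (t ^ 2 + 5 * t + 14)) =
        (t + 5) * (t + 5 + 1) / 2 * (t + 5) * 2 ^ (t ^ 2 + 5 * t + 14) := by ring
    _ ≤ 2 ^ (9 + 5 * t) * 2 ^ (t ^ 2 + 5 * t + 14) := Nat.mul_le_mul_right _ h3
    _ = 2 ^ ((t + 5) ^ 2 - 2) := by
        rw [← pow_add]
        congr 1
        have : (t + 5) ^ 2 = t ^ 2 + 10 * t + 25 := by ring
        omega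

/-- **`Sp_2m(2)`, `Ω_2m^±(2)`** -/
theorem galSum_fam_four {m : ℕ} (hm : 3 ≤ m) : galSum (fam 4 m) ≤ 2 ^ (2 * m ^ 2 - m - 1) := by
  rcases Nat.lt_or_ge m 8 with h8 | h8
  · interval_cases m
    · exact galSum_of_list [(3, 4), (5, 1), (7, 1)] (by norm_num) (by decide) (by decide) (by decide)
    · exact galSum_of_list [(3, 5), (5, 2), (7, 1), (17, 1)] (by norm_num) (by decide) (by decide +kernel)
        (by decide +kernel)
    · exact galSum_of_list [(3, 6), (5, 2), (7, 1), (11, 1), (17, 1), (31, 1)] (by norm_num) (by decide)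
        (by decide +kernel) (by decide +kernel)
    · exact galSum_of_list [(3, 8), (5, 3), (7, 2), (11, 1), (13, 1), (17, 1), (31, 1)] (by norm_num) (by decide)
        (by decide +kernel) (by decide +kernel)
    · exact galSum_of_list [(3, 9), (5, 3), (7, 2), (11, 1), (13, 1), (17, 1), (31, 1), (43, 1), (127, 1)]
        (by norm_num) (by decide) (by decide +kernel) (by decide +kernel)
  obtain ⟨t, rfl⟩ : ∃ t, m = t + 8 := ⟨m - 8, by omega⟩
  have hk : fam 4 (t + 8) ≤ 2 ^ ((t + 8) * (t + 8 + 1)) := by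
    refine (fam_le 4 (t + 8)).trans ?_
    have e : (4 : ℕ) = 2 ^ 2 := by norm_num
    rw [e, ← pow_mul]
    apply Nat.pow_le_pow_right (by norm_num)
    exact Nat.mul_div_le _ _
  have h1 := galSum_le_of_forall (fam_pos (by norm_num) (t + 8)).ne' hk (fun s hs => gal_fam_four hs)
  refine h1.trans ?_
  have h2 : ∀ t : ℕ, (t + 8) * (t + 8 + 1) * (2 * (t + 8)) ≤ 2 ^ (11 + 5 * t) := by
    intro t
    induction t with
    | zero => norm_num
    | succ t ih =>
      have e : 2 ^ (11 + 5 * (t + 1)) = 32 * 2 ^ (11 + 5 * t) := by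
        rw [show 11 + 5 * (t + 1) = 5 + (11 + 5 * t) by ring, pow_add]; norm_num
      have key : 32 * ((t + 8) * (t + 8 + 1) * (2 * (t + 8))) =
          (t + 1 + 8) * (t + 1 + 8 + 1) * (2 * (t + 1 + 8)) + (62 * t ^ 3 + 1544 * t ^ 2 + 12790 * t + 35244) := by ring
      calc (t + 1 + 8) * (t + 1 + 8 + 1) * (2 * (t + 1 + 8)) ≤ 32 * ((t + 8) * (t + 8 + 1) * (2 * (t + 8))) := by
            rw [key]; exact Nat.le_add_right _ _
        _ ≤ 32 * 2 ^ (11 + 5 * t) := Nat.mul_le_mul_left _ ih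
        _ = 2 ^ (11 + 5 * (t + 1)) := e.symm
  set u := (t + 8) * (t + 8 + 1) / 2 with hu
  have hu2 : u * 2 = (t + 8) * (t + 8 + 1) := Nat.div_mul_cancel (Nat.even_mul_succ_self (t + 8)).two_dvd
  calc (t + 8) * (t + 8 + 1) * (2 * (t + 8) * 2 ^ (3 * u)) =
        (t + 8) * (t + 8 + 1) * (2 * (t + 8)) * 2 ^ (3 * u) := by ring
    _ ≤ 2 ^ (11 + 5 * t) * 2 ^ (3 * u) := Nat.mul_le_mul_right _ (h2 t)
    _ = 2 ^ (11 + 5 * t + 3 * u) := by rw [← pow_add]
    _ ≤ 2 ^ (2 * (t + 8) ^ 2 - (t + 8) - 1) := by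
        apply Nat.pow_le_pow_right (by norm_num)
        have e1 : (t + 8) ^ 2 = t ^ 2 + 16 * t + 64 := by ring
        have e2 : (t + 8) * (t + 8 + 1) = t ^ 2 + 17 * t + 72 := by ring
        rw [e2] at hu2
        rw [e1]
        have : 0 ≤ t ^ 2 := Nat.zero_le _
        omega

end Cfsg.Agent.H12.EP.BT
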