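import Cfsg.Agent.H12.EP.Own
import Cfsg.Agent.H12.EP.GalTwo
import Cfsg.Agent.H321.Orders
import Cfsg.Agent.KFacts.RgdFiltClass
import Cfsg.Agent.S0293
import Cfsg.Agent.S0294
import Cfsg.Agent.S0814
import Cfsg.Agent.S0817
import Cfsg.Agent.S0818

/-!
# S3499-VII-BT-COUNT (helper12), part 6: symplectic and orthogonal socles over the field with two elements

`ub_psp_two`, `ub_plus_two`, `ub_minus_two` : `10000 |Q| ≤ 14 |A| ^ (4 + j)` for `1 ≤ j`, `2 m ^ 2 + m ≤ 5 * 60 ^ j`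
(`j = 1` for `m ≤ 12`), socle `PSp_2m(2)` (`m ≥ 3`), `POmega_2m^±(2)` (`m ≥ 4`).
-/

set_option autoImplicit false
set_option linter.unusedSectionVars false

namespace Cfsg.Agent.H12.EP.BT

open Subgroup Cfsg.Agent.H284 Cfsg.Agent.H59.EP Cfsg.Agent.H419.EP Cfsg.Agent.KFacts.RgdFilt Cfsg.Agent.H528.EP

universe u

variable {Q : Type u} [Group Q] [Finite Q] {A : Subgroup Q} {Γ : Subgroup (MulAut Q)}

theorem hasSoc_dvd {L : Type*} [Group L] [Finite L] (hsoc : HasSoc A L) : Nat.card A ∣ Nat.card (MulAut L) := by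
  obtain ⟨f, hf⟩ := hsoc.exists_hom
  rw [Nat.card_congr (MonoidHom.ofInjective hf).toEquiv]
  exact Subgroup.card_subgroup_dvd_card _

/-- **the general form over the field with two elements** -/
theorem ub_two (hs : IsSimpleGroup Q) (h : EPT A Γ) (hg : TwoGen.{u}) {L : Type*} [Group L] [Finite L]
    (hsoc : HasSoc A L) (hL : IsSimpleGroup L) (hLn : ¬ ∀ a b : L, a * b = b * a) (hF : HasFilt 2 L)
    {c N k T : ℕ} (hAut : Nat.card (MulAut L) = c * Nat.card L) (hc : ¬ 4 ∣ c) (hk : k ≠ 0)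
    (hd : c * Nat.card L ∣ 2 ^ N * k) (hG : galSum k ≤ Nat.card L) (hT : c * Nat.card L ≤ 2 ^ T) {j : ℕ}
    (hj0 : 1 ≤ j) (hj : T ≤ 5 * 60 ^ j) : 10000 * Nat.card Q ≤ Nat.card A ^ (4 + j) * 14 := by
  have : Fact (Nat.Prime 2) := ⟨Nat.prime_two⟩
  have h1 : Nat.card A ∣ c * Nat.card L := hAut ▸ hasSoc_dvd hsoc
  have hc0 : 0 < c := Nat.pos_of_ne_zero (by rintro rfl; exact hc (dvd_zero 4))
  have h2 : Nat.card A ≤ c * Nat.card L := Nat.le_of_dvd (Nat.mul_pos hc0 Nat.card_pos) h1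
  refine card_own_one hs h hg hsoc hL hLn hF ?_ hj0 ?_ (clsLe_gal 2) ?_
  · intro h3
    apply hc
    exact Nat.dvd_of_mul_dvd_mul_right (Nat.card_pos (α := L)) (h3.trans h1)
  · refine (h2.trans hT).trans_lt ?_
    calc 2 ^ T ≤ 2 ^ (5 * 60 ^ j) := Nat.pow_le_pow_right (by norm_num) hj
      _ = 32 ^ 60 ^ j := by rw [pow_mul]; norm_num
      _ < 60 ^ 60 ^ j := Nat.pow_lt_pow_left (by norm_num) (by positivity)
  · exact ((galSumNe_le hk (h1.trans hd)).trans hG).trans (Nat.le_of_dvd Nat.card_pos hsoc.card_dvd)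

/-! ### the numbers -/

theorem two_pow_le_fam_four (m : ℕ) : 2 * 2 ^ (m * (m + 1)) ≤ 3 * fam 4 m := by
  have key : 2 ^ (m * (m + 1)) * (2 * 4 ^ m + 1) ≤ 3 * 4 ^ m * fam 4 m := by
    induction m with
    | zero => simp [fam]
    | succ m ih =>
      have e1 : 2 ^ ((m + 1) * (m + 1 + 1)) = 2 ^ (m * (m + 1)) * 4 ^ (m + 1) := by
        have : (4 : ℕ) = 2 ^ 2 := by norm_num
        rw [this, ← pow_mul, ← pow_add]
        congr 1
        ring
      have e2 : fam 4 (m + 1) = fam 4 m * (4 ^ (m + 1) - 1) := rfl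
      rw [e1, e2]
      have h1 : 1 ≤ 4 ^ m := Nat.one_le_pow _ _ (by norm_num)
      have e3 : 4 ^ (m + 1) = 4 * 4 ^ m := by rw [pow_succ']
      obtain ⟨y, hy⟩ : ∃ y, 4 ^ m = y + 1 := ⟨4 ^ m - 1, by omega⟩
      have e4 : 4 ^ (m + 1) - 1 = 4 * y + 3 := by omega
      rw [e4, e3]
      rw [hy] at ih ⊢
      calc 2 ^ (m * (m + 1)) * (4 * (y + 1)) * (2 * (4 * (y + 1)) + 1)
          ≤ (2 ^ (m * (m + 1)) * (2 * (y + 1) + 1)) * (4 * (4 * y + 3)) := by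
            have : (4 * (y + 1)) * (2 * (4 * (y + 1)) + 1) ≤ (2 * (y + 1) + 1) * (4 * (4 * y + 3)) := by nlinarith
            calc 2 ^ (m * (m + 1)) * (4 * (y + 1)) * (2 * (4 * (y + 1)) + 1) =
                2 ^ (m * (m + 1)) * ((4 * (y + 1)) * (2 * (4 * (y + 1)) + 1)) := by ring
              _ ≤ 2 ^ (m * (m + 1)) * ((2 * (y + 1) + 1) * (4 * (4 * y + 3))) := Nat.mul_le_mul_left _ this
              _ = _ := by ring
        _ ≤ (3 * (y + 1) * fam 4 m) * (4 * (4 * y + 3)) := Nat.mul_le_mul_right _ ih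
        _ = 3 * (4 * (y + 1)) * (fam 4 m * (4 * y + 3)) := by ring
  have h4 : 0 < 4 ^ m := by positivity
  have h5 : (2 * 2 ^ (m * (m + 1))) * 4 ^ m ≤ (3 * fam 4 m) * 4 ^ m := by
    calc (2 * 2 ^ (m * (m + 1))) * 4 ^ m = 2 ^ (m * (m + 1)) * (2 * 4 ^ m) := by ring
      _ ≤ 2 ^ (m * (m + 1)) * (2 * 4 ^ m + 1) := Nat.mul_le_mul_left _ (by omega)
      _ ≤ 3 * 4 ^ m * fam 4 m := key
      _ = _ := by ring
  exact Nat.le_of_mul_le_mul_right h5 h4

theorem fam_four_le (m : ℕ) : fam 4 m ≤ 2 ^ (m * (m + 1)) := by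
  refine (fam_le 4 m).trans ?_
  have e : (4 : ℕ) = 2 ^ 2 := by norm_num
  rw [e, ← pow_mul]
  exact Nat.pow_le_pow_right (by norm_num) (Nat.mul_div_le _ _)

theorem prB_two (m : ℕ) : Cfsg.Agent.OrdDiv.prB 2 m = fam 4 m := by
  induction m with
  | zero => rfl
  | succ m ih =>
    have e : fam 4 (m + 1) = fam 4 m * (4 ^ (m + 1) - 1) := rfl
    rw [e, ← ih]
    unfold Cfsg.Agent.OrdDiv.prB
    rw [List.range_succ, List.map_append, List.prod_append]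
    simp only [List.map_cons, List.map_nil, List.prod_cons, List.prod_nil, mul_one]
    rw [pow_mul]
    norm_num

theorem prod_two (m : ℕ) : ∏ i ∈ Finset.range m, (2 ^ (2 * (i + 1)) - 1) = fam 4 m := by
  induction m with
  | zero => rfl
  | succ m ih =>
    have e : fam 4 (m + 1) = fam 4 m * (4 ^ (m + 1) - 1) := rfl
    rw [Finset.prod_range_succ, ih, e, pow_mul]
    norm_num

/-- the orders of the orthogonal groups over the field with two elements -/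
theorem omega_num {m N e : ℕ} (hm : 4 ≤ m) (he : e + 1 = 2 ^ m ∨ e = 2 ^ m + 1)
    (hN : N = 2 ^ (m * (m - 1)) * e * fam 4 (m - 1)) :
    2 ^ (2 * m ^ 2 - m - 1) ≤ N ∧ N ∣ 2 ^ (m * (m - 1)) * fam 4 m ∧ 6 * N ≤ 2 ^ (2 * m ^ 2 + m) := by
  obtain ⟨t, rfl⟩ : ∃ t, m = t + 4 := ⟨m - 4, by omega⟩
  have e1 : t + 4 - 1 = t + 3 := rfl
  rw [e1] at hN ⊢
  have h16 : 16 ≤ 2 ^ (t + 4) := by
    calc 16 = 2 ^ 4 := by norm_num
      _ ≤ _ := Nat.pow_le_pow_right (by norm_num) (by omega)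
  have hf := two_pow_le_fam_four (t + 3)
  have hf' := fam_four_le (t + 3)
  have eX : (t + 3) * (t + 3 + 1) = (t + 4) * (t + 3) := by ring
  rw [eX] at hf hf'
  refine ⟨?_, ?_, ?_⟩
  · -- lower bound
    have h15 : 15 * 2 ^ (t + 4) ≤ 16 * e := by omega
    have h1 : 48 * N ≥ 30 * (2 ^ ((t + 4) * (t + 3)) * 2 ^ (t + 4) * 2 ^ ((t + 4) * (t + 3))) := by
      rw [hN]
      calc 48 * (2 ^ ((t + 4) * (t + 3)) * e * fam 4 (t + 3)) =
            2 ^ ((t + 4) * (t + 3)) * (16 * e) * (3 * fam 4 (t + 3)) := by ring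
        _ ≥ 2 ^ ((t + 4) * (t + 3)) * (15 * 2 ^ (t + 4)) * (2 * 2 ^ ((t + 4) * (t + 3))) :=
            Nat.mul_le_mul (Nat.mul_le_mul_left _ h15) hf
        _ = _ := by ring
    have e2 : 2 ^ ((t + 4) * (t + 3)) * 2 ^ (t + 4) * 2 ^ ((t + 4) * (t + 3)) =
        2 * 2 ^ (2 * (t + 4) ^ 2 - (t + 4) - 1) := by
      rw [← pow_add, ← pow_add, ← pow_succ']
      congr 1
      have e3 : (t + 4) ^ 2 = t ^ 2 + 8 * t + 16 := by ring
      have e4 : (t + 4) * (t + 3) = t ^ 2 + 7 * t + 12 := by ring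
      rw [e3, e4]
      omega
    rw [e2] at h1
    omega
  · rw [hN, mul_assoc]
    apply Nat.mul_dvd_mul_left
    have e2 : fam 4 (t + 4) = fam 4 (t + 3) * (4 ^ (t + 4) - 1) := rfl
    rw [e2, mul_comm]
    apply Nat.mul_dvd_mul_left
    have e3 : 4 ^ (t + 4) = 2 ^ (t + 4) * 2 ^ (t + 4) := by rw [← mul_pow]; norm_num
    rcases he with h1 | h1
    · refine ⟨2 ^ (t + 4) + 1, ?_⟩
      rw [e3, ← h1]
      have : (e + 1) * (e + 1) = e * (e + 1 + 1) + 1 := by ring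
      omega
    · refine ⟨2 ^ (t + 4) - 1, ?_⟩
      rw [e3, h1]
      obtain ⟨y, hy⟩ : ∃ y, 2 ^ (t + 4) = y + 1 := ⟨2 ^ (t + 4) - 1, by omega⟩
      rw [hy, Nat.add_sub_cancel]
      have : (y + 1) * (y + 1) = (y + 1 + 1) * y + 1 := by ring
      omega
  · have he2 : e ≤ 2 * 2 ^ (t + 4) := by omega
    rw [hN]
    calc 6 * (2 ^ ((t + 4) * (t + 3)) * e * fam 4 (t + 3)) ≤
          2 ^ 3 * (2 ^ ((t + 4) * (t + 3)) * (2 * 2 ^ (t + 4)) * 2 ^ ((t + 4) * (t + 3))) := by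
          apply Nat.mul_le_mul (by norm_num)
          exact Nat.mul_le_mul (Nat.mul_le_mul_left _ he2) hf'
      _ = 2 ^ (4 + (t + 4) * (t + 3) + (t + 4) + (t + 4) * (t + 3)) := by
          rw [show 4 + (t + 4) * (t + 3) + (t + 4) + (t + 4) * (t + 3) =
            3 + ((t + 4) * (t + 3) + (1 + (t + 4)) + (t + 4) * (t + 3)) by ring, pow_add 2 3,
            pow_add 2 (_ + _) ((t + 4) * (t + 3)), pow_add 2 ((t + 4) * (t + 3)) (1 + (t + 4)), pow_add 2 1, pow_one]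
      _ ≤ _ := by
          apply Nat.pow_le_pow_right (by norm_num)
          nlinarith

theorem charP_two {K : Type} [Field K] [Fintype K] (hK : Fintype.card K = 2) : CharP K 2 := by
  obtain ⟨n, hp, hn⟩ := FiniteField.card K (ringChar K)
  have h1 : ringChar K = 2 := by
    have h2 : (ringChar K) ∣ 2 := by
      rw [← hK, hn]
      exact dvd_pow_self _ n.ne_zero
    exact (Nat.prime_dvd_prime_iff_eq hp Nat.prime_two).1 h2
  rw [← h1]
  exact ringChar.charP K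

/-- **socle `PSp_2m(2)`** -/
theorem ub_psp_two (hs : IsSimpleGroup Q) (h : EPT A Γ) (hg : TwoGen.{u}) {K : Type} [Field K] [Fintype K]
    (hK : Fintype.card K = 2) {m : ℕ} (hm : 3 ≤ m) (hsoc : HasSoc A (Cfsg.PSp m K))
    (hL : IsSimpleGroup (Cfsg.PSp m K)) (hLn : ¬ ∀ a b : Cfsg.PSp m K, a * b = b * a) {j : ℕ} (hj0 : 1 ≤ j)
    (hj : 2 * m ^ 2 + m ≤ 5 * 60 ^ j) : 10000 * Nat.card Q ≤ Nat.card A ^ (4 + j) * 14 := by
  have : Fact (Nat.Prime 2) := ⟨Nat.prime_two⟩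
  have := charP_two hK
  have hfin : Finite (Cfsg.PSp m K) := Quotient.finite _
  have hcard : Nat.card (Cfsg.PSp m K) = 2 ^ (m ^ 2) * fam 4 m := by
    have h1 := Cfsg.Agent.H321.Orders.psp_eq (F := K) (m := m) (by omega)
    rw [hK, prB_two] at h1
    simpa using h1
  have hAut := Cfsg.Agent.S0814.result (F := K) 2 1 le_rfl (by rw [hK]; norm_num) m (by omega) (by omega)
  rw [if_neg (by omega)] at hAut
  norm_num at hAut
  have hF : HasFilt 2 (Cfsg.PSp m K) := Cfsg.Agent.KFacts.RgdFiltClass.hasFilt_of_PSp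
    ⟨K, inferInstance, inferInstance, inferInstance, m, by omega, by omega, ⟨MulEquiv.refl _⟩⟩
  refine ub_two hs h hg hsoc hL hLn hF (c := 1) (N := m ^ 2) (k := fam 4 m) (T := 2 * m ^ 2 + m)
    (by rw [one_mul]; exact hAut) (by norm_num) (fam_pos (by norm_num) m).ne' (by rw [one_mul, hcard]) ?_ ?_ hj0 hj
  · refine (galSum_fam_four hm).trans ?_
    rw [hcard]
    have h1 := two_pow_le_fam_four m
    have h2 : 2 ^ (m * (m + 1)) ≤ 2 * fam 4 m := by omega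
    have h3 : 2 ^ (2 * m ^ 2 - m - 1) ≤ 2 ^ (m ^ 2 + m * (m + 1) - 1) := by
      apply Nat.pow_le_pow_right (by norm_num)
      have : m ^ 2 + m * (m + 1) = 2 * m ^ 2 + m := by ring
      omega
    refine h3.trans ?_
    have h4 : 2 * 2 ^ (m ^ 2 + m * (m + 1) - 1) = 2 ^ (m ^ 2) * 2 ^ (m * (m + 1)) := by
      rw [← pow_succ', ← pow_add]
      congr 1
      have : 0 < m ^ 2 := by positivity
      omega
    have h5 : 2 ^ (m ^ 2) * 2 ^ (m * (m + 1)) ≤ 2 ^ (m ^ 2) * (2 * fam 4 m) := Nat.mul_le_mul_left _ h2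
    have h6 : 2 ^ (m ^ 2) * (2 * fam 4 m) = 2 * (2 ^ (m ^ 2) * fam 4 m) := by ring
    omega
  · rw [one_mul, hcard]
    calc 2 ^ (m ^ 2) * fam 4 m ≤ 2 ^ (m ^ 2) * 2 ^ (m * (m + 1)) := Nat.mul_le_mul_left _ (fam_four_le m)
      _ = 2 ^ (2 * m ^ 2 + m) := by rw [← pow_add]; congr 1; ring

theorem galSum_three_fam : galSum (3 * fam 4 4) ≤ 2 ^ 27 :=
  galSum_of_list [(3, 6), (5, 2), (7, 1), (17, 1)] (by norm_num) (by decide) (by decide +kernel) (by decide +kernel)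

/-- **socle `POmega_2m^+(2)`** -/
theorem ub_plus_two (hs : IsSimpleGroup Q) (h : EPT A Γ) (hg : TwoGen.{u}) {K : Type} [Field K] [Fintype K]
    (hK : Fintype.card K = 2) {m : ℕ} (hm : 4 ≤ m) (hsoc : HasSoc A (Cfsg.POmega K (Cfsg.quadFormPlus m K)))
    (hL : IsSimpleGroup (Cfsg.POmega K (Cfsg.quadFormPlus m K)))
    (hLn : ¬ ∀ a b : Cfsg.POmega K (Cfsg.quadFormPlus m K), a * b = b * a) {j : ℕ} (hj0 : 1 ≤ j)
    (hj : 2 * m ^ 2 + m ≤ 5 * 60 ^ j) : 10000 * Nat.card Q ≤ Nat.card A ^ (4 + j) * 14 := by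
  have : Fact (Nat.Prime 2) := ⟨Nat.prime_two⟩
  have := charP_two hK
  have hfin : Finite (Cfsg.POmega K (Cfsg.quadFormPlus m K)) := Quotient.finite _
  have h2m : 16 ≤ 2 ^ m := by
    calc 16 = 2 ^ 4 := by norm_num
      _ ≤ _ := Nat.pow_le_pow_right (by norm_num) hm
  have hodd : Nat.gcd 4 (2 ^ m - 1) = 1 := by
    have h1 : Nat.Coprime 2 (2 ^ m - 1) := by
      rw [Nat.coprime_two_left, Nat.odd_iff]
      have : 2 ∣ 2 ^ m := dvd_pow_self 2 (by omega)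
      omega
    have h2 : Nat.Coprime (2 ^ 2) (2 ^ m - 1) := h1.pow_left 2
    exact h2
  have hcard : Nat.card (Cfsg.POmega K (Cfsg.quadFormPlus m K)) = 2 ^ (m * (m - 1)) * (2 ^ m - 1) * fam 4 (m - 1) := by
    have h1 := Cfsg.Agent.S0293.result (F := K) hK m hm
    rw [hodd, one_mul, prod_two] at h1
    exact h1
  obtain ⟨n1, n2, n3⟩ := omega_num hm (Or.inl (by omega)) hcard
  have hAut := Cfsg.Agent.S0817.result (F := K) 2 1 le_rfl (by rw [hK]; norm_num) m hm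
  rw [if_pos rfl] at hAut
  have hF : HasFilt 2 (Cfsg.POmega K (Cfsg.quadFormPlus m K)) := Cfsg.Agent.KFacts.RgdFiltClass.hasFilt_of_POmegaPlus
    ⟨K, inferInstance, inferInstance, inferInstance, m, hm, ⟨MulEquiv.refl _⟩⟩
  by_cases h4 : m = 4
  · subst h4
    rw [if_pos rfl] at hAut
    refine ub_two hs h hg hsoc hL hLn hF (c := 6) (N := 4 * (4 - 1) + 1) (k := 3 * fam 4 4) (T := 2 * 4 ^ 2 + 4)
      (by rw [hAut]) (by norm_num) (by decide) ?_ ?_ n3 hj0 hj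
    · have e : 2 ^ (4 * (4 - 1) + 1) * (3 * fam 4 4) = 6 * (2 ^ (4 * (4 - 1)) * fam 4 4) := by ring
      rw [e]
      exact Nat.mul_dvd_mul_left _ n2
    · exact galSum_three_fam.trans ((by norm_num : 2 ^ 27 ≤ 2 ^ (2 * 4 ^ 2 - 4 - 1)).trans n1)
  · rw [if_neg h4] at hAut
    refine ub_two hs h hg hsoc hL hLn hF (c := 2) (N := m * (m - 1) + 1) (k := fam 4 m) (T := 2 * m ^ 2 + m)
      (by rw [hAut]) (by norm_num) (fam_pos (by norm_num) m).ne' ?_ ((galSum_fam_four (by omega)).trans n1)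
      (le_trans (Nat.mul_le_mul_right _ (by norm_num)) n3) hj0 hj
    have e : 2 ^ (m * (m - 1) + 1) * fam 4 m = 2 * (2 ^ (m * (m - 1)) * fam 4 m) := by ring
    rw [e]
    exact Nat.mul_dvd_mul_left _ n2

/-- **socle `POmega_2m^-(2)`** -/
theorem ub_minus_two (hs : IsSimpleGroup Q) (h : EPT A Γ) (hg : TwoGen.{u}) {K : Type} [Field K] [Fintype K]
    (hK : Fintype.card K = 2) {m : ℕ} (hm : 4 ≤ m) {a b : K}
    (hab : ∀ z₁ z₂ : K, z₁ ^ 2 + a * z₁ * z₂ + b * z₂ ^ 2 = 0 → z₁ = 0 ∧ z₂ = 0)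
    (hsoc : HasSoc A (Cfsg.POmega K (Cfsg.quadFormMinus (m - 1) K a b)))
    (hL : IsSimpleGroup (Cfsg.POmega K (Cfsg.quadFormMinus (m - 1) K a b)))
    (hLn : ¬ ∀ x y : Cfsg.POmega K (Cfsg.quadFormMinus (m - 1) K a b), x * y = y * x) {j : ℕ} (hj0 : 1 ≤ j)
    (hj : 2 * m ^ 2 + m ≤ 5 * 60 ^ j) : 10000 * Nat.card Q ≤ Nat.card A ^ (4 + j) * 14 := by
  have : Fact (Nat.Prime 2) := ⟨Nat.prime_two⟩
  have := charP_two hK
  have hfin : Finite (Cfsg.POmega K (Cfsg.quadFormMinus (m - 1) K a b)) := Quotient.finite _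
  have hodd : Nat.gcd 4 (2 ^ m + 1) = 1 := by
    have h1 : Nat.Coprime 2 (2 ^ m + 1) := by
      rw [Nat.coprime_two_left, Nat.odd_iff]
      have : 2 ∣ 2 ^ m := dvd_pow_self 2 (by omega)
      omega
    have h2 : Nat.Coprime (2 ^ 2) (2 ^ m + 1) := h1.pow_left 2
    exact h2
  have hcard : Nat.card (Cfsg.POmega K (Cfsg.quadFormMinus (m - 1) K a b)) =
      2 ^ (m * (m - 1)) * (2 ^ m + 1) * fam 4 (m - 1) := by
    have h1 := Cfsg.Agent.S0294.result (F := K) hK m hm a b hab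
    rw [hodd, one_mul, prod_two] at h1
    exact h1
  obtain ⟨n1, n2, n3⟩ := omega_num hm (Or.inr rfl) hcard
  have hAut := Cfsg.Agent.S0818.result (F := K) 2 1 le_rfl (by rw [hK]; norm_num) m hm a b hab
  rw [if_pos rfl] at hAut
  have hF : HasFilt 2 (Cfsg.POmega K (Cfsg.quadFormMinus (m - 1) K a b)) :=
    Cfsg.Agent.KFacts.RgdFiltClass.hasFilt_of_POmegaMinus
      ⟨K, inferInstance, inferInstance, inferInstance, m, a, b, hm, hab, ⟨MulEquiv.refl _⟩⟩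
  refine ub_two hs h hg hsoc hL hLn hF (c := 2) (N := m * (m - 1) + 1) (k := fam 4 m) (T := 2 * m ^ 2 + m)
    (by rw [hAut]) (by norm_num) (fam_pos (by norm_num) m).ne' ?_ ((galSum_fam_four (by omega)).trans n1)
    (le_trans (Nat.mul_le_mul_right _ (by norm_num)) n3) hj0 hj
  have e : 2 ^ (m * (m - 1) + 1) * fam 4 m = 2 * (2 ^ (m * (m - 1)) * fam 4 m) := by ring
  rw [e]
  exact Nat.mul_dvd_mul_left _ n2

end Cfsg.Agent.H12.EP.BT
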